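import Cfsg.Agent.TwoF.Gen.BCov
import Cfsg.Agent.SporadicA.Co1Simple
import Cfsg.Agent.S5549

/-!
# TwoF SP-B2: the weights of the group of the sign changes of `Co0` (helper88)

In odd characteristic: `dim [V, -1] ≥ 24` if `-1` acts, and `dim [V, e] ≥ 48` for an octad `e` otherwise.
-/

set_option autoImplicit false

namespace Cfsg.Agent.TwoF.SpO

open Cfsg Module Gen Subgroup Cfsg.Agent.SporadicA.Co0Mono Cfsg.Agent.H852.GolayMod
open Cfsg.Agent.SporadicA.Co1Simple (allOne)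
open Cfsg.Agent.S5549 (fs fs_apply exists_fs eq_empty_of_orth fs_symmDiff)

/-- the sign changes -/
def SG : Subgroup Co0 where
  carrier := Set.range signCo0
  one_mem' := ⟨0, signCo0_zero⟩
  mul_mem' := by
    rintro _ _ ⟨c, rfl⟩ ⟨d, rfl⟩
    exact ⟨c + d, signCo0_add c d⟩
  inv_mem' := by
    rintro _ ⟨c, rfl⟩
    exact ⟨c, (signCo0_inv c).symm⟩

/-- a sign change -/
def sg (c : golayCode) : SG := ⟨signCo0 c, c, rfl⟩

theorem sg_add (c d : golayCode) : sg (c + d) = sg c * sg d := Subtype.ext (signCo0_add c d)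

theorem SG_comm : ∀ a ∈ SG, ∀ b ∈ SG, a * b = b * a := by
  rintro _ ⟨c, rfl⟩ _ ⟨d, rfl⟩
  rw [← signCo0_add, add_comm, signCo0_add]

theorem SG_sq : ∀ a ∈ SG, a ^ 2 = 1 := by
  rintro _ ⟨c, rfl⟩
  rw [pow_two, signCo0_mul_self]

theorem perm_mem (σ : M24) : permCo0 σ ∈ normalizer (SG : Set Co0) := by
  have h : ∀ τ : M24, ∀ a ∈ SG, permCo0 τ * a * (permCo0 τ)⁻¹ ∈ SG := by
    rintro τ _ ⟨c, rfl⟩
    exact ⟨_, (perm_mul_sign_mul_inv τ c).symm⟩
  refine mem_normalizer_iff.2 fun a => ⟨h σ a, fun ha => ?_⟩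
  have h1 := h σ⁻¹ _ ha
  rw [map_inv] at h1
  simpa only [inv_inv, ← mul_assoc, inv_mul_cancel, one_mul, inv_mul_cancel_right] using h1

theorem exists_map {s t : Finset GolayPt} (h : s.card = t.card) (h5 : s.card ≤ 5) :
    ∃ σ ∈ M24, s.map σ.toEmbedding = t := by
  obtain ⟨σ, h1, h2⟩ := exists_perm h5 (fun i => (s.equivFin.symm i : GolayPt))
    (fun i => (t.equivFin.symm (Fin.cast h i) : GolayPt)) (Subtype.val_injective.comp s.equivFin.symm.injective)
    ((Subtype.val_injective.comp t.equivFin.symm.injective).comp (Fin.cast_injective h))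
  refine ⟨σ, h1, Finset.eq_of_subset_of_card_le (fun q hq => ?_) (by rw [Finset.card_map, h])⟩
  obtain ⟨p, hp, rfl⟩ := Finset.mem_map.1 hq
  have h3 := h2 (s.equivFin ⟨p, hp⟩)
  rw [Equiv.symm_apply_apply] at h3
  exact h3 ▸ (t.equivFin.symm _).2

variable {k : Type*} [Field k] {V : Type*} [AddCommGroup V] [Module k V] {ρ : Representation k Co0 V}

/-- the character belongs to the set `s` -/
def Has (χ : SG →* kˣ) (s : Finset GolayPt) : Prop := ∀ c, χ (sg c) = 1 ↔ fs s c = 0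

theorem exists_has (χ : SG →* kˣ) : ∃ s : Finset GolayPt, s.card ≤ 4 ∧ Has χ s := by
  classical
  have h1 : ∀ c, χ (sg c) ≠ 1 → χ (sg c) = -1 := fun c hc => by
    have h2 : χ (sg c) * χ (sg c) = 1 := by
      rw [← map_mul, show sg c * sg c = 1 from Subtype.ext (signCo0_mul_self c), map_one]
    exact Units.ext ((mul_self_eq_one_iff.1 (congrArg Units.val h2)).resolve_left fun e => hc (Units.ext e))
  let f : golayCode →+ ZMod 2 := AddMonoidHom.mk' (fun c => if χ (sg c) = 1 then 0 else 1) fun c d => by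
    rw [sg_add, map_mul]
    by_cases hc : χ (sg c) = 1
    · rw [hc, one_mul, if_pos rfl, zero_add]
    by_cases hd : χ (sg d) = 1
    · rw [hd, mul_one, if_pos rfl, add_zero]
    · rw [if_neg hc, if_neg hd, h1 c hc, h1 d hd, neg_mul_neg, one_mul, if_pos rfl]
      rfl
  obtain ⟨s, h2, h3⟩ := exists_fs (f.toZModLinearMap 2)
  refine ⟨s, h2, fun c => ?_⟩
  rw [← h3]
  show _ ↔ (if χ (sg c) = 1 then (0 : ZMod 2) else 1) = 0
  split_ifs with h4
  · exact iff_of_true h4 rfl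
  · exact iff_of_false h4 (by decide)

variable [FiniteDimensional k V]

theorem Has.move {χ : SG →* kˣ} {s t : Finset GolayPt} (h : Has χ s) (h1 : s.card = t.card) (h5 : s.card ≤ 5) :
    ∃ ψ : SG →* kˣ, Has ψ t ∧ mlt ρ SG ψ = mlt ρ SG χ := by
  obtain ⟨σ, h2, rfl⟩ := exists_map h1 h5
  refine ⟨tw _ (perm_mem ⟨σ, h2⟩) χ, fun c => ?_, mlt_tw _ _⟩
  rw [tw_apply_of_eq _ _ (s := sg (wordPerm (⟨σ, h2⟩ : M24)⁻¹ c))
    (by rw [← map_inv]; exact (perm_mul_sign_mul_inv _ c).symm.trans (by rw [map_inv, inv_inv]; rfl)), h,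
    fs_apply, fs_apply, Finset.sum_map]
  rfl

theorem le_cod_of_fam {χ : SG →* kˣ} {s : Finset GolayPt} (h : Has χ s) (h5 : s.card ≤ 5) (hχ : 0 < mlt ρ SG χ)
    (c : golayCode) {ι : Type} [Fintype ι] (g : ι → Finset GolayPt) (h2 : ∀ i, s.card = (g i).card ∧ fs (g i) c ≠ 0)
    (h3 : ∀ i j, fs (g i) = fs (g j) → i = j) : Fintype.card ι ≤ cod ρ (zpowers (signCo0 c)) := by
  classical
  choose f hf hg using fun i => h.move (ρ := ρ) (h2 i).1 h5
  have h6 : Function.Injective f := fun t u e => h3 t u (LinearMap.ext fun d =>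
    (by decide : ∀ x y : ZMod 2, (x = 0 ↔ y = 0) → x = y) _ _ ((hf t d).symm.trans (e ▸ hf u d)))
  have h7 := card_mul_le_cod (ρ := ρ) (zpowers_le.2 (sg c).2) (Finset.univ.image f) (m := 1)
    (fun ψ hψ e => by
      obtain ⟨t, -, rfl⟩ := Finset.mem_image.1 hψ
      exact (h2 t).2 ((hf t c).1 (e _ (mem_zpowers _))))
    fun ψ hψ => by
      obtain ⟨t, -, rfl⟩ := Finset.mem_image.1 hψ
      exact (hg t).symm ▸ hχ
  rwa [mul_one, Finset.card_image_of_injective _ h6, Finset.card_univ] at h7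

theorem eq_of_fs {s t : Finset GolayPt} (h : fs s = fs t) (hc : s.card + t.card ≤ 4) : s = t :=
  symmDiff_eq_bot.1 (eq_empty_of_orth ((Finset.card_le_card Finset.symmDiff_subset_union).trans
    ((Finset.card_union_le _ _).trans hc)) (LinearMap.ext fun d => by
      rw [fs_symmDiff, h, LinearMap.add_apply]
      exact CharTwo.add_self_eq_zero _))

/-- the points of the octad -/
def pI : Fin 8 → GolayPt := ![none, some 0, some 12, some 14, some 16, some 17, some 18, some 22]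

/-- points outside the octad -/
def pJ : Fin 6 → GolayPt := ![some 1, some 2, some 3, some 4, some 5, some 6]

theorem pIJ : (∀ a b, pI a = pI b → a = b) ∧ (∀ a b, pJ a = pJ b → a = b) ∧ ∀ a b, pI a ≠ pJ b := by
  decide +kernel

theorem le_cod_of_two {χ : SG →* kˣ} {s : Finset GolayPt} (h : Has χ s) (h5 : s.card ≤ 5) (hχ : 0 < mlt ρ SG χ)
    (c : golayCode) (B : Finset GolayPt) (h1 : s.card = B.card + 2) (h2 : ∀ a, pI a ∉ B) (h3 : ∀ b, pJ b ∉ B)
    (h4 : ∀ a b, (c : GolayPt → ZMod 2) (pI a) + ((c : GolayPt → ZMod 2) (pJ b) + fs B c) ≠ 0) :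
    48 ≤ cod ρ (zpowers (signCo0 c)) := by
  have h6 : ∀ a b, pI a ∉ insert (pJ b) B := fun a b e => (Finset.mem_insert.1 e).elim (pIJ.2.2 a b) (h2 a)
  have h7 : ∀ a b, fs (insert (pI a) (insert (pJ b) B)) = fs {pI a, pJ b} + fs B := fun a b => LinearMap.ext fun d => by
    rw [LinearMap.add_apply, fs_apply, fs_apply, fs_apply, Finset.sum_insert (h6 a b), Finset.sum_insert (h3 b),
      Finset.sum_pair (pIJ.2.2 a b), add_assoc]
  refine le_cod_of_fam h h5 hχ c (fun x : Fin 8 × Fin 6 => insert (pI x.1) (insert (pJ x.2) B)) (fun x => ⟨?_, ?_⟩)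
    fun x y e => ?_
  · rw [Finset.card_insert_of_notMem (h6 _ _), Finset.card_insert_of_notMem (h3 _), h1]
  · rw [fs_apply, Finset.sum_insert (h6 _ _), Finset.sum_insert (h3 _)]
    exact h4 _ _
  · rw [h7, h7, add_left_inj] at e
    have h8 := eq_of_fs e (add_le_add Finset.card_le_two Finset.card_le_two)
    have h9 : pI x.1 ∈ ({pI y.1, pJ y.2} : Finset GolayPt) := h8 ▸ Finset.mem_insert_self _ _
    have h10 : pJ x.2 ∈ ({pI y.1, pJ y.2} : Finset GolayPt) :=
      h8 ▸ Finset.mem_insert_of_mem (Finset.mem_singleton_self _)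
    rw [Finset.mem_insert, Finset.mem_singleton] at h9 h10
    exact Prod.ext (pIJ.1 _ _ (h9.resolve_right (pIJ.2.2 _ _))) (pIJ.2.1 _ _ (h10.resolve_left (pIJ.2.2 _ _).symm))

/-- an octad -/
def oct : golayCode := ⟨Golay.Core.word 13062145, word_facts.1⟩

theorem sum_allOne (s : Finset GolayPt) : fs s allOne = s.card := by
  rw [fs_apply, Finset.card_eq_sum_ones, Nat.cast_sum]
  rfl

theorem le_cod_neg_aux [IsAlgClosed k] [Finite Co0] (hk : ((2 : ℕ) : k) ≠ 0) (h : ρ (signCo0 allOne) ≠ 1) :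
    24 ≤ cod ρ (zpowers (signCo0 allOne)) := by
  obtain ⟨χ, h1, h2⟩ := exists_wt (ρ := ρ) SG_comm (card_ne_zero_of_exp Nat.prime_two hk SG_sq) (r := sg allOne) h
  obtain ⟨s, h3, h4⟩ := exists_has χ
  rw [Ne, h4, sum_allOne] at h1
  have h5 : s.card = 1 ∨ s.card = 3 := by
    generalize s.card = n at h1 h3
    interval_cases n <;> revert h1 <;> decide
  rcases h5 with h5 | h5
  · exact le_cod_of_fam h4 (by omega) h2 allOne (fun i : GolayPt => {i})
      (fun i => ⟨h5, by rw [sum_allOne]; exact one_ne_zero⟩)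
      fun i j e => Finset.singleton_injective (eq_of_fs e (by simp))
  · exact le_trans (by decide) (le_cod_of_two h4 (by omega) h2 allOne {some 7} h5 (by decide +kernel)
      (by decide +kernel) fun a b => by rw [sum_allOne]; exact (by decide : (1 : ZMod 2) + (1 + 1) ≠ 0))

theorem le_cod_oct_aux [IsAlgClosed k] [Finite Co0] (hk : ((2 : ℕ) : k) ≠ 0) (h : ρ (signCo0 allOne) = 1)
    (h' : ρ (signCo0 oct) ≠ 1) : 48 ≤ cod ρ (zpowers (signCo0 oct)) := by
  obtain ⟨χ, h1, h2⟩ := exists_wt (ρ := ρ) SG_comm (card_ne_zero_of_exp Nat.prime_two hk SG_sq) (r := sg oct) h'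
  obtain ⟨s, h3, h4⟩ := exists_has χ
  obtain ⟨v, h5, h6⟩ := (Submodule.ne_bot_iff _).1 (mlt_pos_iff.1 h2)
  have h7 : χ (sg allOne) = 1 := by
    have h7 : ρ (signCo0 allOne) v = _ := h5 (sg allOne)
    rw [h] at h7
    exact Units.ext (smul_left_injective k h6 (h7.symm.trans (one_smul k v).symm))
  rw [h4, sum_allOne] at h7
  have h8 : s.card ≠ 0 := fun e => h1 ((h4 _).2 (by rw [Finset.card_eq_zero.1 e]; rfl))
  have h9 : s.card = 2 ∨ s.card = 4 := by
    generalize s.card = n at h3 h7 h8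
    interval_cases n <;> revert h7 h8 <;> decide
  rcases h9 with h9 | h9
  · exact le_cod_of_two h4 (by omega) h2 oct ∅ h9 (by simp) (by simp) (by
      simp only [fs_apply]; decide +kernel)
  · exact le_cod_of_two h4 (by omega) h2 oct {some 7, some 8} h9 (by decide +kernel) (by decide +kernel) (by
      simp only [fs_apply]; decide +kernel)

omit [FiniteDimensional k V] in
theorem bc_ne_one {g : Co0} (h : ρ g ≠ 1) : bc (AlgebraicClosure k) ρ g ≠ 1 := fun e =>
  h (baseChange_injective (AlgebraicClosure k) (e.trans (LinearMap.baseChange_one _ _).symm))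

/-- **`-1` acts** -/
theorem le_cod_neg [Finite Co0] (hk : ((2 : ℕ) : k) ≠ 0) (h : ρ (signCo0 allOne) ≠ 1) :
    24 ≤ cod ρ (zpowers (signCo0 allOne)) :=
  cod_bc (AlgebraicClosure k) (ρ := ρ) (zpowers (signCo0 allOne)) ▸
    le_cod_neg_aux (card_ne_zero_closure hk) (bc_ne_one h)

/-- **`-1` does not act** -/
theorem le_cod_oct [Finite Co0] (hk : ((2 : ℕ) : k) ≠ 0) (h : ρ (signCo0 allOne) = 1) (h' : ρ (signCo0 oct) ≠ 1) :
    48 ≤ cod ρ (zpowers (signCo0 oct)) :=
  cod_bc (AlgebraicClosure k) (ρ := ρ) (zpowers (signCo0 oct)) ▸ le_cod_oct_aux (card_ne_zero_closure hk)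
    (by rw [bc_apply, h]; exact LinearMap.baseChange_one _ _) (bc_ne_one h')

end Cfsg.Agent.TwoF.SpO
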